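/-
A Fourier argument over Z/13: a trilinear-type map compatible with the Frobenius group 13:3
whose fixed-point relations hold vanishes.
-/
import Mathlib

set_option autoImplicit false

namespace Cfsg.Agent.H54.Cr

open Finset

abbrev Z13 := ZMod 13

instance fact13 : Fact (Nat.Prime 13) := ⟨by norm_num⟩

variable {V W : Type*} [AddCommGroup W]

/-- the Fourier component of weight `(α, β, γ)` -/
def Fo (X : Z13 → V → V) (Y : Z13 → W →+ W) (T : V → V → V → W) (α β γ : Z13) (a b c : V) : W :=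
  ∑ p : Z13 × Z13 × Z13, Y (-(α * p.1 + β * p.2.1 + γ * p.2.2)) (T (X p.1 a) (X p.2.1 b) (X p.2.2 c))

variable {X : Z13 → V → V} {Y : Z13 → W →+ W} {T : V → V → V → W}

theorem Fo_zero (α β γ : Z13) (a b c : V) : Fo X Y (fun _ _ _ => (0 : W)) α β γ a b c = 0 := by
  simp [Fo]

theorem Fo_add (T' : V → V → V → W) (α β γ : Z13) (a b c : V) :
    Fo X Y (fun a b c => T a b c + T' a b c) α β γ a b c =
      Fo X Y T α β γ a b c + Fo X Y T' α β γ a b c := by
  simp [Fo, sum_add_distrib]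

theorem Fo_sum {ι : Type*} (s : Finset ι) (S : ι → V → V → V → W) (α β γ : Z13) (a b c : V) :
    Fo X Y (fun a b c => ∑ i ∈ s, S i a b c) α β γ a b c = ∑ i ∈ s, Fo X Y (S i) α β γ a b c := by
  simp only [Fo, map_sum]
  exact sum_comm

theorem Fo_perm (α β γ : Z13) (a b c : V) :
    Fo X Y (fun a b c => T b c a) α β γ a b c = Fo X Y T β γ α b c a := by
  refine Fintype.sum_equiv ⟨fun p => (p.2.1, p.2.2, p.1), fun p => (p.2.2, p.1, p.2.1),
    fun _ => rfl, fun _ => rfl⟩ _ _ fun p => ?_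
  simp only [Equiv.coe_fn_mk]
  congr 2
  ring

theorem Fo_scale {ga gb gc : V → V} {r s t r' s' t' : Z13} (hr : r * r' = 1) (hs : s * s' = 1)
    (ht : t * t' = 1) (ha : ∀ i a, ga (X i a) = X (r * i) (ga a))
    (hb : ∀ i a, gb (X i a) = X (s * i) (gb a)) (hc : ∀ i a, gc (X i a) = X (t * i) (gc a))
    (α β γ : Z13) (a b c : V) :
    Fo X Y (fun a b c => T (ga a) (gb b) (gc c)) α β γ a b c =
      Fo X Y T (α * r') (β * s') (γ * t') (ga a) (gb b) (gc c) := by
  refine Fintype.sum_equiv ⟨fun p => (r * p.1, s * p.2.1, t * p.2.2),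
    fun p => (r' * p.1, s' * p.2.1, t' * p.2.2), fun p => ?_, fun p => ?_⟩ _ _ fun p => ?_
  · simp only [← mul_assoc, mul_comm r' r, mul_comm s' s, mul_comm t' t, hr, hs, ht, one_mul]
  · simp only [← mul_assoc, hr, hs, ht, one_mul]
  · simp only [Equiv.coe_fn_mk, ha, hb, hc]
    congr 2
    linear_combination (α * p.1) * hr + (β * p.2.1) * hs + (γ * p.2.2) * ht

theorem Fo_shift (hX : ∀ i j a, X i (X j a) = X (i + j) a) (hY : ∀ i j w, Y i (Y j w) = Y (i + j) w)
    (u v w α β γ : Z13) (a b c : V) :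
    Fo X Y (fun a b c => T (X u a) (X v b) (X w c)) α β γ a b c =
      Y (α * u + β * v + γ * w) (Fo X Y T α β γ a b c) := by
  simp only [Fo, map_sum, hX, hY]
  refine Fintype.sum_equiv (Equiv.addLeft (u, v, w)) _ _ fun p => ?_
  simp only [Equiv.coe_addLeft, Prod.fst_add, Prod.snd_add]
  congr 2
  ring

theorem Fo_map (hY : ∀ i j w, Y i (Y j w) = Y (i + j) w) (u α β γ : Z13) (a b c : V) :
    Fo X Y (fun a b c => Y u (T a b c)) α β γ a b c = Y u (Fo X Y T α β γ a b c) := by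
  simp only [Fo, map_sum, hY, add_comm u]

theorem sum_Y (hY : ∀ i j w, Y i (Y j w) = Y (i + j) w)
    (hfix : ∀ m : Z13, m ≠ 0 → ∀ w, Y m w = w → w = 0) {i : Z13} (hi : i ≠ 0) (u : Z13) (w : W) :
    ∑ α : Z13, Y (-(α * i + u)) w = 0 := by
  refine hfix i hi _ ?_
  rw [map_sum]
  refine (Fintype.sum_equiv (Equiv.addRight (1 : Z13)) _ _ fun α => ?_).symm
  simp only [Equiv.coe_addRight, hY]
  congr 2
  ring

theorem Fo_inv (hX0 : ∀ a, X 0 a = a) (hY0 : ∀ w, Y 0 w = w)
    (hY : ∀ i j w, Y i (Y j w) = Y (i + j) w)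
    (hfix : ∀ m : Z13, m ≠ 0 → ∀ w, Y m w = w → w = 0) (a b c : V) :
    ∑ q : Z13 × Z13 × Z13, Fo X Y T q.1 q.2.1 q.2.2 a b c = 13 • 13 • 13 • T a b c := by
  unfold Fo
  rw [sum_comm, Fintype.sum_eq_single (0 : Z13 × Z13 × Z13)]
  · simp only [Prod.fst_zero, Prod.snd_zero, mul_zero, add_zero, neg_zero, hX0, hY0, sum_const,
      card_univ, Fintype.card_prod, ZMod.card, smul_smul]
  · rintro ⟨i, j, l⟩ hp
    simp only
    by_cases hi : i = 0
    · by_cases hj : j = 0
      · have hl : l ≠ 0 := fun hl => hp (by simp [hi, hj, hl])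
        simp only [Fintype.sum_prod_type]
        refine sum_eq_zero fun α _ => sum_eq_zero fun β _ => ?_
        simpa only [add_comm] using sum_Y hY hfix hl (α * i + β * j) _
      · simp only [Fintype.sum_prod_type]
        refine sum_eq_zero fun α _ => ?_
        rw [sum_comm]
        refine sum_eq_zero fun γ _ => ?_
        have := sum_Y hY hfix hj (α * i + γ * l) (T (X i a) (X j b) (X l c))
        rw [← this]
        refine sum_congr rfl fun β _ => ?_
        congr 2
        ring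
    · rw [Fintype.sum_prod_type_right]
      refine sum_eq_zero fun q _ => ?_
      simpa only [add_assoc] using sum_Y hY hfix hi (q.1 * j + q.2 * l) _

/-- weights killed without the Jacobi identity -/
def Dead (α β γ : Z13) : Prop :=
  α + β + γ ≠ 1 ∨ α = 0 ∨ β = 0 ∨ γ = 0 ∨ α + β = 0 ∨
    (∀ i j : Fin 3, (i ≠ 0 ∨ j ≠ 0) → α * 9 ^ (i : ℕ) + β * 9 ^ (j : ℕ) + γ ≠ 1) ∨
    (∀ i j : Fin 3, (i ≠ 0 ∨ j ≠ 0) → α * 9 ^ (i : ℕ) + β * 9 ^ (i : ℕ) + γ * 9 ^ (j : ℕ) ≠ 1)

instance (α β γ : Z13) : Decidable (Dead α β γ) := by unfold Dead; infer_instance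

theorem dead_or (α β : Z13) :
    Dead α β (1 - α - β) ∨ (Dead β (1 - α - β) α ∧ Dead (1 - α - β) α β) := by
  revert α β
  decide +kernel

theorem tri_zero (g : V → V) (hX0 : ∀ a, X 0 a = a) (hY0 : ∀ w, Y 0 w = w)
    (hX : ∀ i j a, X i (X j a) = X (i + j) a) (hY : ∀ i j w, Y i (Y j w) = Y (i + j) w)
    (hfix : ∀ m : Z13, m ≠ 0 → ∀ w, Y m w = w → w = 0) (h13 : ∀ w : W, 13 • w = 0 → w = 0)
    (hg : ∀ i a, g (X i a) = X (3 * i) (g a))
    (E : ∀ a b c, T (X 1 a) (X 1 b) (X 1 c) = Y 1 (T a b c))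
    (Z1 : ∀ a b c, ∑ u, T (X u a) b c = 0) (Z2 : ∀ a b c, ∑ u, T a (X u b) c = 0)
    (Z3 : ∀ a b c, ∑ u, T a b (X u c) = 0) (H3 : ∀ a b c, ∑ u, T (X u a) (X u b) c = 0)
    (H1 : ∀ a b c, ∑ p : Fin 3 × Fin 3, T (g^[p.1] a) (g^[p.2] b) c = 0)
    (H2 : ∀ a b c, ∑ p : Fin 3 × Fin 3, T (g^[p.1] a) (g^[p.1] b) (g^[p.2] c) = 0)
    (J : ∀ a b c, T a b c + T b c a + T c a b = 0) (a b c : V) : T a b c = 0 := by
  have hgi : ∀ (n : ℕ) i a, g^[n] (X i a) = X (3 ^ n * i) (g^[n] a) := by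
    intro n
    induction n with
    | zero => simp
    | succ n ih => intro i a; rw [Function.iterate_succ_apply', ih, hg, Function.iterate_succ_apply',
        pow_succ', mul_assoc]
  have h39 : ∀ n : ℕ, (3 : Z13) ^ n * 9 ^ n = 1 := fun n => by
    rw [← mul_pow, show (3 : Z13) * 9 = 1 by decide, one_pow]
  have s1 : ∀ α β γ : Z13, α + β + γ ≠ 1 → ∀ a b c, Fo X Y T α β γ a b c = 0 := by
    intro α β γ h a b c
    have e1 := Fo_shift (T := T) hX hY 1 1 1 α β γ a b c
    simp only [E, mul_one] at e1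
    rw [Fo_map hY] at e1
    refine hfix (α + β + γ - 1) (sub_ne_zero.2 h) _ ?_
    have := congrArg (Y (-1)) e1
    rw [hY, hY, neg_add_cancel, hY0] at this
    rw [show α + β + γ - 1 = -1 + (α + β + γ) by ring]
    exact this.symm
  have s0 : ∀ (α β γ : Z13) (u v w : Z13), (∀ a b c, ∑ i, T (X (u * i) a) (X (v * i) b) (X (w * i) c) = 0) →
      α * u + β * v + γ * w = 0 → ∀ a b c, Fo X Y T α β γ a b c = 0 := by
    intro α β γ u v w h h0 a b c
    have e1 := Fo_sum (X := X) (Y := Y) univ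
      (fun i a b c => T (X (u * i) a) (X (v * i) b) (X (w * i) c)) α β γ a b c
    simp only [h, Fo_zero, Fo_shift hX hY] at e1
    refine h13 _ ?_
    have hc : ∑ _i : Z13, Fo X Y T α β γ a b c = 13 • Fo X Y T α β γ a b c := by
      rw [sum_const, card_univ, ZMod.card]
    rw [e1, ← hc]
    refine sum_congr rfl fun i _ => ?_
    rw [show α * (u * i) + β * (v * i) + γ * (w * i) = 0 by linear_combination i * h0, hY0]
  have dead : ∀ α β γ : Z13, Dead α β γ → ∀ a b c, Fo X Y T α β γ a b c = 0 := by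
    intro α β γ h a b c
    rcases h with h | h | h | h | h | h | h
    · exact s1 _ _ _ h a b c
    · exact s0 α β γ 1 0 0 (by simpa [hX0] using Z1) (by simp [h]) a b c
    · exact s0 α β γ 0 1 0 (by simpa [hX0] using Z2) (by simp [h]) a b c
    · exact s0 α β γ 0 0 1 (by simpa [hX0] using Z3) (by simp [h]) a b c
    · exact s0 α β γ 1 1 0 (by simpa [hX0] using H3) (by simp [h]) a b c
    · have e1 := Fo_sum (X := X) (Y := Y) univ
        (fun (p : Fin 3 × Fin 3) a b c => T (g^[p.1] a) (g^[p.2] b) (g^[0] c)) α β γ a b c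
      simp only [Function.iterate_zero, id, H1, Fo_zero] at e1
      rw [Fintype.sum_eq_single (0 : Fin 3 × Fin 3)] at e1
      · simpa using e1.symm
      · rintro ⟨i, j⟩ hp
        have := Fo_scale (X := X) (Y := Y) (T := T) (gc := id) (h39 i) (h39 j) (mul_one (1 : Z13))
          (hgi i) (hgi j) (by simp) α β γ a b c
        simp only [id, mul_one] at this
        simp only [this]
        exact s1 _ _ _ (h i j (by by_contra hh; push Not at hh; exact hp (by simp [hh.1, hh.2])))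
          _ _ _
    · have e1 := Fo_sum (X := X) (Y := Y) univ
        (fun (p : Fin 3 × Fin 3) a b c => T (g^[p.1] a) (g^[p.1] b) (g^[p.2] c)) α β γ a b c
      simp only [H2, Fo_zero] at e1
      rw [Fintype.sum_eq_single (0 : Fin 3 × Fin 3)] at e1
      · simpa using e1.symm
      · rintro ⟨i, j⟩ hp
        simp only [Fo_scale (X := X) (Y := Y) (T := T) (h39 i) (h39 i) (h39 j)
          (hgi i) (hgi i) (hgi j) α β γ a b c]
        exact s1 _ _ _ (h i j (by by_contra hh; push Not at hh; exact hp (by simp [hh.1, hh.2])))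
          _ _ _
  have all : ∀ α β γ : Z13, Fo X Y T α β γ a b c = 0 := by
    intro α β γ
    by_cases h : α + β + γ = 1
    · obtain rfl : γ = 1 - α - β := by linear_combination h
      rcases dead_or α β with h1 | ⟨h1, h2⟩
      · exact dead _ _ _ h1 a b c
      · have e1 := Fo_add (X := X) (Y := Y) (T := fun a b c => T a b c + T b c a)
          (fun a b c => T c a b) α β (1 - α - β) a b c
        simp only [J, Fo_zero] at e1
        have e2 := Fo_perm (X := X) (Y := Y) (T := fun a b c => T b c a) α β (1 - α - β) a b c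
        rw [Fo_perm (T := T), dead _ _ _ h2] at e2
        rw [Fo_add, Fo_perm (T := T), dead _ _ _ h1, e2] at e1
        simpa using e1.symm
    · exact s1 _ _ _ h a b c
  have := Fo_inv (T := T) hX0 hY0 hY hfix a b c
  simp only [all, sum_const_zero] at this
  exact h13 _ (h13 _ (h13 _ this.symm))

end Cfsg.Agent.H54.Cr
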