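/-
A group of class at most three with a fixed-point-free action of 13:3 whose order-three part
has abelian fixed points has class at most two.
-/
import Cfsg.Agent.H54.CrFour

set_option autoImplicit false

namespace Cfsg.Agent.H54.Cr

open Finset Subgroup
open scoped commutatorElement IsMulCommutative

variable {A : Type*} [Group A]

theorem norm_x [Finite A] {W : Type*} [CommGroup W] (X : Z13 → MulAut A)
    (hX : ∀ i j, X i * X j = X (i + j)) (hfix : ∀ a, X 1 a = a → a = 1) (D : Subgroup A)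
    (hD : ∀ i, ∀ a ∈ D, X i a ∈ D) (f : A → W) (hf : ∀ a ∈ D, ∀ b ∈ D, f (a * b) = f a * f b)
    {a : A} (ha : a ∈ D) : ∏ i, f (X i a) = 1 := by
  let k : D → D := fun e => ⟨e * (X 1 e)⁻¹, D.mul_mem e.2 (D.inv_mem (hD 1 _ e.2))⟩
  have hk : Function.Injective k := by
    intro e e' h
    have h1 : (e : A) * (X 1 e)⁻¹ = e' * (X 1 e')⁻¹ := congrArg Subtype.val h
    have h2 := hfix ((e' : A)⁻¹ * e) (by
      rw [map_mul, map_inv, inv_mul_eq_iff_eq_mul, ← mul_assoc, ← mul_inv_eq_iff_eq_mul,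
        ← inv_inj, mul_inv_rev, inv_inv, h1, mul_inv_rev, inv_inv])
    exact Subtype.ext (inv_mul_eq_one.1 h2).symm
  obtain ⟨e, he⟩ := Finite.injective_iff_surjective.1 hk ⟨a, ha⟩
  have h1 : a * X 1 e = e := by
    have : (e : A) * (X 1 e)⁻¹ = a := congrArg Subtype.val he
    rw [← this, inv_mul_cancel_right]
  have h2 : ∀ i, f (X i a) * f (X (i + 1) e) = f (X i e) := fun i => by
    rw [← hf _ (hD _ _ ha) _ (hD _ _ e.2), ← hX, MulAut.mul_apply, ← map_mul, h1]
  have h3 : ∏ i, f (X (i + 1) e) = ∏ i, f (X i e) :=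
    Fintype.prod_equiv (Equiv.addRight 1) _ _ fun _ => rfl
  have h4 := prod_congr (rfl : (univ : Finset Z13) = univ) fun i _ => h2 i
  rw [prod_mul_distrib, h3] at h4
  exact mul_eq_right.1 h4

open Classical in
/-- central elements as elements of the centre -/
noncomputable def zc (a : A) : center A := if h : a ∈ center A then ⟨a, h⟩ else 1

theorem zc_coe {a : A} (h : a ∈ center A) : (zc a : A) = a := by rw [zc, dif_pos h]

theorem zc_mul {a b : A} (ha : a ∈ center A) (hb : b ∈ center A) : zc (a * b) = zc a * zc b :=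
  Subtype.ext (by rw [Subgroup.coe_mul, zc_coe ha, zc_coe hb, zc_coe (mul_mem ha hb)])

theorem zc_one : zc (1 : A) = 1 := Subtype.ext (zc_coe (one_mem _))

theorem aut_center (φ : MulAut A) {a : A} (h : a ∈ center A) : φ a ∈ center A := by
  rw [mem_center_iff] at h ⊢
  intro b
  rw [← φ.apply_symm_apply b, ← map_mul, ← map_mul, h]

/-- an automorphism on the centre -/
def cz (φ : MulAut A) : Additive (center A) →+ Additive (center A) :=
  MonoidHom.toAdditive ((φ.toMonoidHom.comp (center A).subtype).codRestrict _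
    fun a => aut_center φ a.2)

theorem cz_coe (φ : MulAut A) (w : Additive (center A)) :
    ((Additive.toMul (cz φ w) : center A) : A) = φ (Additive.toMul w : center A) := rfl

theorem add_ext {v w : Additive (center A)}
    (h : ((Additive.toMul v : center A) : A) = (Additive.toMul w : center A)) : v = w :=
  Additive.toMul.injective (Subtype.ext h)

theorem cm_mem (a b : A) : ⁅a, b⁆ ∈ commutator A :=
  commutator_mem_commutator (mem_top a) (mem_top b)

section
variable (h3 : ∀ d ∈ commutator A, ∀ c, ⁅d, c⁆ ∈ center A)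
include h3

theorem M_left {d d' : A} (hd : d ∈ commutator A) (hd' : d' ∈ commutator A) (c : A) :
    zc ⁅d * d', c⁆ = zc ⁅d, c⁆ * zc ⁅d', c⁆ := by
  have e : ⁅d * d', c⁆ = d * ⁅d', c⁆ * d⁻¹ * ⁅d, c⁆ := by group
  rw [e, mem_center_iff.1 (h3 d' hd' c) d, mul_inv_cancel_right, zc_mul (h3 d' hd' c) (h3 d hd c),
    mul_comm]

theorem M_right {d : A} (hd : d ∈ commutator A) (c c' : A) :
    zc ⁅d, c * c'⁆ = zc ⁅d, c⁆ * zc ⁅d, c'⁆ := by
  have e : ⁅d, c * c'⁆ = ⁅d, c⁆ * (c * ⁅d, c'⁆ * c⁻¹) := by group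
  rw [e, mem_center_iff.1 (h3 d hd c') c, mul_inv_cancel_right, zc_mul (h3 d hd c) (h3 d hd c')]

theorem M_cent {d : A} (hd : d ∈ commutator A) (a c : A) : zc ⁅⁅a, d⁆, c⁆ = 1 := by
  have : ⁅a, d⁆ ∈ center A := by
    rw [← commutatorElement_inv]; exact inv_mem (h3 d hd a)
  rw [commutatorElement_eq_one_iff_mul_comm.2 (mem_center_iff.1 this c).symm, zc_one]

/-- `c ↦ [d, c]` -/
noncomputable def Mr {d : A} (hd : d ∈ commutator A) : A →* center A :=
  MonoidHom.mk' (fun c => zc ⁅d, c⁆) (M_right h3 hd)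

/-- `a ↦ [[a, b], c]` -/
noncomputable def T1 (b c : A) : A →* center A :=
  MonoidHom.mk' (fun a => zc ⁅⁅a, b⁆, c⁆) fun a a' => by
    have e : ⁅a * a', b⁆ = ⁅a, ⁅a', b⁆⁆ * ⁅a', b⁆ * ⁅a, b⁆ := by group
    rw [e, M_left h3 (mul_mem (cm_mem _ _) (cm_mem _ _)) (cm_mem _ _),
      M_left h3 (cm_mem _ _) (cm_mem _ _), M_cent h3 (cm_mem _ _), one_mul, mul_comm]

/-- `b ↦ [[a, b], c]` -/
noncomputable def T2 (a c : A) : A →* center A :=
  MonoidHom.mk' (fun b => zc ⁅⁅a, b⁆, c⁆) fun b b' => by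
    have e : ⁅a, b * b'⁆ = ⁅a, b⁆ * (⁅b, ⁅a, b'⁆⁆ * ⁅a, b'⁆) := by group
    rw [e, M_left h3 (cm_mem _ _) (mul_mem (cm_mem _ _) (cm_mem _ _)),
      M_left h3 (cm_mem _ _) (cm_mem _ _), M_cent h3 (cm_mem _ _), one_mul]

theorem jacobi (a b c : A) : zc ⁅⁅a, b⁆, c⁆ * zc ⁅⁅b, c⁆, a⁆ * zc ⁅⁅c, a⁆, b⁆ = 1 := by
  have e : ∀ a b c : A, zc ⁅⁅a, b⁆, c⁆ = zc ⁅⁅a, b⁆, b * c * b⁻¹⁆ := fun a b c => by
    have : Mr h3 (cm_mem a b) (b * c * b⁻¹) = Mr h3 (cm_mem a b) c := by
      rw [map_mul, map_mul, map_inv, mul_comm (Mr h3 _ b), mul_inv_cancel_right]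
    exact this.symm
  rw [e a b c, e b c a, e c a b, ← zc_mul (h3 _ (cm_mem _ _) _) (h3 _ (cm_mem _ _) _),
    ← zc_mul (mul_mem (h3 _ (cm_mem _ _) _) (h3 _ (cm_mem _ _) _)) (h3 _ (cm_mem _ _) _),
    ← zc_one]
  congr 1
  group

theorem step [Finite A] (X : Z13 → MulAut A) (γ : MulAut A) (hX0 : X 0 = 1)
    (hX : ∀ i j, X i * X j = X (i + j)) (hg : ∀ i, γ * X i = X (3 * i) * γ) (hγ : γ ^ 3 = 1)
    (hfix : ∀ m : Z13, m ≠ 0 → ∀ a, X m a = a → a = 1) (h13 : ∀ a : A, a ^ 13 = 1 → a = 1)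
    (L : ∀ a, ∃ c, γ c = c ∧ ∀ f : A →* center A, f c = f a * f (γ a) * f (γ (γ a)))
    (hab : ∀ c d, γ c = c → γ d = d → c * d = d * c) (a b c : A) : ⁅⁅a, b⁆, c⁆ = 1 := by
  have hc : ∀ (φ : MulAut A), ∀ d ∈ commutator A, φ d ∈ commutator A := fun φ d hd =>
    (characteristic_iff_le_comap.1 inferInstance φ) hd
  have f1 := hfix 1 one_ne_zero
  have key := tri_zero (V := A) (W := Additive (center A)) (X := fun i a => X i a)
    (Y := fun i => cz (X i)) (T := fun a b c => Additive.ofMul (zc ⁅⁅a, b⁆, c⁆)) γ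
    (by simp [hX0]) (fun w => add_ext (by rw [cz_coe, hX0]; rfl))
    (fun i j a => by rw [← hX]; rfl)
    (fun i j w => add_ext (by rw [cz_coe, cz_coe, cz_coe, ← hX]; rfl))
    (fun m hm w h => add_ext (hfix m hm _ (by rw [← cz_coe, h])))
    (fun w h => add_ext (h13 _ (congrArg (fun v => ((Additive.toMul v : center A) : A)) h)))
    (fun i a => by rw [← MulAut.mul_apply, hg]; rfl)
    (fun a b c => add_ext (by
      rw [cz_coe, toMul_ofMul, toMul_ofMul, zc_coe (h3 _ (cm_mem _ _) _),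
        zc_coe (h3 _ (cm_mem _ _) _), map_commutatorElement, map_commutatorElement]))
    (fun a b c => by
      rw [← ofMul_prod]
      exact congrArg _ (norm_x X hX f1 ⊤ (fun _ _ _ => mem_top _) (T1 h3 b c)
        (fun _ _ _ _ => map_mul _ _ _) (mem_top a)))
    (fun a b c => by
      rw [← ofMul_prod]
      exact congrArg _ (norm_x X hX f1 ⊤ (fun _ _ _ => mem_top _) (T2 h3 a c)
        (fun _ _ _ _ => map_mul _ _ _) (mem_top b)))
    (fun a b c => by
      rw [← ofMul_prod]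
      exact congrArg _ (norm_x X hX f1 ⊤ (fun _ _ _ => mem_top _) (Mr h3 (cm_mem a b))
        (fun _ _ _ _ => map_mul _ _ _) (mem_top c)))
    (fun a b c => by
      rw [← ofMul_prod]
      have := norm_x X hX f1 (commutator A) (fun i => hc (X i)) (fun d => zc ⁅d, c⁆)
        (fun d hd d' hd' => M_left h3 hd hd' c) (cm_mem a b)
      simp only [map_commutatorElement] at this
      exact congrArg _ this)
    (fun a b c => by
      rw [← ofMul_prod]
      obtain ⟨a', ha, ha'⟩ := L a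
      obtain ⟨b', hb, hb'⟩ := L b
      have e0 : T2 h3 a' c b' = 1 := by
        change zc ⁅⁅a', b'⁆, c⁆ = 1
        rw [commutatorElement_eq_one_iff_mul_comm.2 (hab _ _ ha hb), commutatorElement_one_left,
          zc_one]
      rw [hb'] at e0
      change T1 h3 b c a' * T1 h3 (γ b) c a' * T1 h3 (γ (γ b)) c a' = 1 at e0
      simp only [ha'] at e0
      refine congrArg _ (Eq.trans ?_ e0)
      rw [Fintype.prod_prod_type_right]
      simp only [Fin.prod_univ_three]
      rfl)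
    (fun a b c => by
      rw [← ofMul_prod]
      obtain ⟨c', hc0, hc'⟩ := L c
      have m0 := cm_mem a b
      have m1 := hc γ _ m0
      have m2 := hc γ _ m1
      have cm : ∀ d ∈ commutator A, ∀ e ∈ commutator A, d * e = e * d := fun d hd e he => by
        have : Mr h3 hd e = 1 := Abelianization.commutator_subset_ker _ he
        rw [← commutatorElement_eq_one_iff_mul_comm, ← zc_coe (h3 d hd e)]
        exact congrArg Subtype.val this
      have g3 : γ (γ (γ ⁅a, b⁆)) = ⁅a, b⁆ := by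
        rw [← MulAut.mul_apply, ← MulAut.mul_apply, ← pow_three', hγ]; rfl
      have mD := mul_mem (mul_mem m0 m1) m2
      have e0 : Mr h3 mD c' = 1 := by
        change zc ⁅_, c'⁆ = 1
        rw [commutatorElement_eq_one_iff_mul_comm.2 (hab _ _ ?_ hc0), zc_one]
        rw [map_mul, map_mul, g3, ← cm _ m0 _ (mul_mem m1 m2), mul_assoc]
      rw [hc'] at e0
      change zc _ * zc _ * zc _ = 1 at e0
      simp only [M_left h3 (mul_mem m0 m1) m2, M_left h3 m0 m1] at e0
      simp only [map_commutatorElement] at e0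
      refine congrArg _ (Eq.trans ?_ e0)
      rw [Fintype.prod_prod_type_right]
      simp only [Fin.prod_univ_three]
      rfl)
    (fun a b c => congrArg Additive.ofMul (jacobi h3 a b c)) a b c
  rw [← zc_coe (h3 _ (cm_mem a b) c)]
  exact congrArg (fun v => ((Additive.toMul v : center A) : A)) key

end

end Cfsg.Agent.H54.Cr
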