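/-
Norm maps of Frobenius groups with kernel of order 13 acting on normal subgroups; a 2-group
normalized by 13:3 in a group without elements of order 12 and 26 has exponent at most 4.
-/
import Cfsg.Agent.H54.CrStep
import Cfsg.Agent.H49.Hall

set_option autoImplicit false

namespace Cfsg.Agent.H54.Cr

open Finset Subgroup _root_.Cfsg.Agent.H49
open scoped commutatorElement IsMulCommutative

universe u

variable {G : Type u} [Group G] {x g h : G}

/-- powers of an element of order 13 -/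
def xp (x : G) (i : Z13) : G := x ^ i.val

theorem xp_cast (hx : x ^ 13 = 1) (n : ℕ) : xp x (n : Z13) = x ^ n := by
  rw [xp, ZMod.val_natCast, ← pow_eq_pow_mod n hx]

theorem xp_add (hx : x ^ 13 = 1) (i j : Z13) : xp x i * xp x j = xp x (i + j) := by
  rw [xp, xp, ← pow_add, ← xp_cast hx, Nat.cast_add, ZMod.natCast_zmod_val, ZMod.natCast_zmod_val]

theorem xp_zero : xp x 0 = 1 := by simp [xp]

theorem xp_conj (hx : x ^ 13 = 1) {k : ℕ} (hh : h * x * h⁻¹ = x ^ k) (i : Z13) :
    h * xp x i = xp x (k * i) * h := by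
  have : h * xp x i * h⁻¹ = x ^ (k * i.val) := by rw [xp, ← conj_pow, hh, pow_mul]
  rw [← xp_cast hx, Nat.cast_mul, ZMod.natCast_zmod_val] at this
  rw [← this, inv_mul_cancel_right]

theorem xp_conj_pow (hx : x ^ 13 = 1) {k : ℕ} (hh : h * x * h⁻¹ = x ^ k) (n : ℕ) (i : Z13) :
    h ^ n * xp x i = xp x ((k : Z13) ^ n * i) * h ^ n := by
  induction n with
  | zero => simp
  | succ n ih => rw [pow_succ', mul_assoc, ih, ← mul_assoc, xp_conj hx hh, pow_succ' (k : Z13),
      mul_assoc, mul_assoc]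

theorem order_xp (hx : orderOf x = 13) {m : Z13} (hm : m ≠ 0) : orderOf (xp x m) = 13 := by
  rw [xp, (Nat.Coprime.orderOf_pow ?_), hx]
  rw [hx]
  revert m
  decide

variable {K : Subgroup G} [K.Normal]

/-- conjugation on a normal subgroup -/
scoped notation "cn" => MulAut.conjNormal

/-- the norm of `b` with respect to `h` -/
def nm (h : G) (b : K) : ℕ → K
  | 0 => 1
  | d + 1 => nm h b d * cn (h ^ d) b

theorem pow_nm (h : G) (b : K) (d : ℕ) : ((b : G) * h) ^ d = nm h b d * h ^ d := by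
  induction d with
  | zero => simp [nm]
  | succ d ih =>
    rw [pow_succ, ih, nm, Subgroup.coe_mul, MulAut.conjNormal_apply, pow_succ]
    group

theorem map_nm {W : Type*} [CommGroup W] (f : K →* W) (h : G) (b : K) (d : ℕ) :
    f (nm h b d) = ∏ i ∈ range d, f (cn (h ^ i) b) := by
  induction d with
  | zero => simp [nm]
  | succ d ih => rw [nm, map_mul, ih, prod_range_succ]

variable [Finite G]

theorem avg {W : Type*} [CommGroup W] (f : K →* W) (hx : x ^ 13 = 1)
    (hfix : ∀ a : K, cn (xp x 1) a = a → a = 1) {k : ℕ} (hh : h * x * h⁻¹ = x ^ k) {d : ℕ}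
    (hd : ∀ i, i < d → (k : Z13) ^ (i + 1) ≠ 1) (a : K) :
    ∏ s, f (cn (xp x s) (nm h (cn (xp x (-s)) a) (d + 1))) = f a ^ 13 := by
  have hX : ∀ i j, (cn (xp x i) : MulAut K) * cn (xp x j) = cn (xp x (i + j)) := fun i j => by
    rw [← map_mul, xp_add hx]
  have e : ∀ s, f (cn (xp x s) (nm h (cn (xp x (-s)) a) (d + 1))) =
      ∏ i ∈ range (d + 1), f (cn (xp x ((1 - (k : Z13) ^ i) * s)) (cn (h ^ i) a)) := fun s => by
    have := map_nm (f.comp (cn (xp x s) : MulAut K).toMonoidHom) h (cn (xp x (-s)) a) (d + 1)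
    refine this.trans (prod_congr rfl fun i _ => ?_)
    change f (cn _ (cn _ (cn _ a))) = _
    rw [← MulAut.mul_apply, ← MulAut.mul_apply, ← MulAut.mul_apply, ← map_mul, ← map_mul,
      ← map_mul, mul_assoc, xp_conj_pow hx hh, ← mul_assoc, xp_add hx]
    congr 5
    ring
  simp only [e]
  rw [prod_comm, prod_range_succ', prod_eq_one, one_mul]
  · simp [xp_zero]
  · intro i hi
    have h1 := norm_x (fun i => (cn (xp x i) : MulAut K)) hX hfix ⊤ (fun _ _ _ => mem_top _) f
      (fun _ _ _ _ => map_mul _ _ _) (mem_top (cn (h ^ (i + 1)) a))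
    rw [← h1]
    exact Fintype.prod_equiv (Equiv.mulLeft₀ _ (sub_ne_zero.2 (hd i (mem_range.1 hi)).symm)) _ _
      fun _ => rfl

theorem exists_nm_ne (hK : K ≠ ⊥) [Group.IsSolvable K] (h13 : ¬ 13 ∣ Nat.card K) (hx : x ^ 13 = 1)
    (hfix : ∀ a : K, cn (xp x 1) a = a → a = 1) {k : ℕ} (hh : h * x * h⁻¹ = x ^ k) {d : ℕ}
    (hd : ∀ i, i < d → (k : Z13) ^ (i + 1) ≠ 1) : ∃ b : K, nm h b (d + 1) ≠ 1 := by
  by_contra hn
  push Not at hn
  have := (nontrivial_iff_ne_bot K).2 hK
  obtain ⟨a, -, ha⟩ := SetLike.exists_of_lt (Group.IsSolvable.commutator_lt_top_of_nontrivial K)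
  have h1 := avg (Abelianization.of (G := K)) hx hfix hh hd a
  simp only [hn, map_one, prod_const_one] at h1
  have h2 : orderOf (Abelianization.of a) ∣ Nat.card K :=
    (orderOf_map_dvd _ a).trans (orderOf_dvd_natCard a)
  rcases (Nat.dvd_prime fact13.out).1 (orderOf_dvd_of_pow_eq_one h1.symm) with h3 | h3
  · exact ha (Abelianization.ker_of K ▸ (orderOf_eq_one_iff.1 h3 :))
  · exact h13 (h3 ▸ h2)

theorem lift (hK : IsPGroup 2 K) (og : orderOf g = 3) (b : K) :
    ∃ c : K, cn g c = c ∧ ∀ (W : Type u) [CommGroup W] (f : K →* W),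
      f c = f b * f (cn g b) * f (cn g (cn g b)) := by
  have g3 : cn g (cn g (cn g b)) = b := by
    rw [← MulAut.mul_apply, ← MulAut.mul_apply, ← map_mul, ← map_mul, ← pow_three', ← og,
      pow_orderOf_eq_one, map_one, MulAut.one_apply]
  set n : K := b * cn g b * cn g (cn g b) with hn
  have hc : (Nat.card (zpowers g)).Coprime (Nat.card (⁅K, K⁆ : Subgroup G)) := by
    obtain ⟨j, hj⟩ := (hK.to_le (der_le (M := K))).exists_card_eq
    rw [Nat.card_zpowers, og, hj]
    exact Nat.Coprime.pow_right _ (by norm_num)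
  have hm : ∀ d : K, (d : G) ∈ (⁅K, K⁆ : Subgroup G) ↔ d ∈ commutator K := fun d => by
    rw [← map_subtype_commutator, Subgroup.mem_map]
    exact ⟨fun ⟨e, he, h⟩ => Subtype.ext h ▸ he, fun h => ⟨d, h, rfl⟩⟩
  obtain ⟨e, ⟨he, heK⟩, hce⟩ := coprime_lift_cent (A := zpowers g) (K := K) (N := ⁅K, K⁆)
    (le_normalizer_of_normal) (le_normalizer_of_normal) hc (Or.inl inferInstance) n.2 (by
      intro a ha
      have h0 : ∀ j : ℕ, Abelianization.of (cn (g ^ j) n) = Abelianization.of n := by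
        intro j
        induction j with
        | zero => simp
        | succ j ih =>
          rw [← ih, pow_succ, map_mul (MulAut.conjNormal (H := K)), MulAut.mul_apply]
          simp only [hn, map_mul, g3]
          rw [mul_comm, mul_assoc]
      obtain ⟨j, rfl⟩ := (mem_powers_iff_mem_zpowers.2 ha :)
      have : n⁻¹ * cn (g ^ j) n ∈ commutator K := by
        rw [← Abelianization.ker_of, MonoidHom.mem_ker, map_mul, h0, map_inv, inv_mul_cancel]
      have h5 := (hm _).2 this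
      rw [Subgroup.coe_mul, MulAut.conjNormal_apply, ← mul_assoc, ← mul_assoc] at h5
      exact h5)
  refine ⟨n * ⟨e, heK⟩, Subtype.ext ?_, fun W _ f => ?_⟩
  · rw [MulAut.conjNormal_apply, mul_inv_eq_iff_eq_mul]
    exact hce g (mem_zpowers g)
  · have : f ⟨e, heK⟩ = 1 := Abelianization.commutator_subset_ker f ((hm _).1 he)
    rw [map_mul, this, mul_one, hn, map_mul, map_mul]

omit [Finite G] in
theorem fix26 (hK : IsPGroup 2 K) (h26 : ∀ y : G, ¬ 26 ∣ orderOf y) (ox : orderOf x = 13) (a : K)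
    (ha : cn x a = a) : a = 1 := by
  by_contra h1
  obtain ⟨j, hj⟩ := IsPGroup.iff_orderOf.1 hK a
  have hc : Commute x a := mul_inv_eq_iff_eq_mul.1 (congrArg Subtype.val ha)
  rw [← Subgroup.orderOf_coe] at hj
  have := hc.orderOf_mul_eq_mul_orderOf_of_coprime (by
    rw [ox, hj]; exact Nat.Coprime.pow_right _ (by norm_num))
  rcases j with _ | j
  · exact h1 (Subtype.ext (orderOf_eq_one_iff.1 hj))
  · exact h26 _ ⟨2 ^ j, by rw [this, ox, hj]; ring⟩

omit [Finite G] in
theorem fix12 (hK : IsPGroup 2 K) (h12 : ∀ y : G, ¬ 12 ∣ orderOf y) (og : orderOf g = 3) (a : K)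
    (ha : cn g a = a) : a ^ 2 = 1 := by
  obtain ⟨j, hj⟩ := IsPGroup.iff_orderOf.1 hK a
  have hc : Commute g a := mul_inv_eq_iff_eq_mul.1 (congrArg Subtype.val ha)
  have hj' := hj
  rw [← Subgroup.orderOf_coe] at hj
  have := hc.orderOf_mul_eq_mul_orderOf_of_coprime (by
    rw [og, hj]; exact Nat.Coprime.pow_right _ (by norm_num))
  rw [← orderOf_dvd_iff_pow_eq_one, hj']
  rcases j with _ | _ | j
  · simp
  · simp
  · exact absurd ⟨2 ^ j, by rw [this, og, hj]; ring⟩ (h12 (g * a))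

theorem sq_mem (hK : IsPGroup 2 K) (h26 : ∀ y : G, ¬ 26 ∣ orderOf y)
    (h12 : ∀ y : G, ¬ 12 ∣ orderOf y) (ox : orderOf x = 13) (og : orderOf g = 3)
    (hh : g * x * g⁻¹ = x ^ 3) (a : K) : a ^ 2 ∈ commutator K := by
  have hx : x ^ 13 = 1 := ox ▸ pow_orderOf_eq_one x
  have h1 := avg (Abelianization.of (G := K)) hx (fix26 hK h26 (order_xp ox one_ne_zero)) hh
    (d := 2) (by decide) a
  have h2 : Abelianization.of a ^ (13 * 2) = 1 := by
    rw [pow_mul, ← h1, ← prod_pow]
    refine prod_eq_one fun s _ => ?_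
    obtain ⟨c, hc, hc'⟩ := lift hK og (cn (xp x (-s)) a)
    have e := hc' _ (Abelianization.of.comp (cn (xp x s) : MulAut K).toMonoidHom)
    have e2 := map_nm (Abelianization.of.comp (cn (xp x s) : MulAut K).toMonoidHom) g
      (cn (xp x (-s)) a) 3
    simp only [prod_range_succ, range_zero, prod_empty, one_mul, pow_zero, map_one,
      MulAut.one_apply, pow_one, sq g, map_mul (MulAut.conjNormal (H := K)), MulAut.mul_apply] at e2
    rw [← e2] at e
    change _ = Abelianization.of (cn _ _) at e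
    rw [← e, ← map_pow, fix12 hK h12 og c hc, map_one]
  obtain ⟨j, hj⟩ := hK a
  have h3 : (Abelianization.of a ^ 2) ^ 2 ^ j = 1 := by
    rw [← pow_mul, mul_comm, pow_mul, ← map_pow, hj, map_one, one_pow]
  rw [mul_comm, pow_mul] at h2
  rw [← Abelianization.ker_of, MonoidHom.mem_ker, map_pow]
  exact (pow_eq_one_iff_of_coprime (Nat.Coprime.pow_right j (by norm_num))).1 ⟨h2, h3⟩

theorem class2 (n : ℕ) : ∀ (G : Type u) [Group G] [Finite G] (K : Subgroup G) [K.Normal] (x g : G),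
    Nat.card G = n → IsPGroup 2 K → (∀ y : G, ¬ 26 ∣ orderOf y) → (∀ y : G, ¬ 12 ∣ orderOf y) →
    orderOf x = 13 → orderOf g = 3 → g * x * g⁻¹ = x ^ 3 → commutator K ≤ center K := by
  induction n using Nat.strong_induction_on with
  | _ n ih =>
  intro G _ _ K _ x g hn hK h26 h12 ox og hh
  have hx : x ^ 13 = 1 := ox ▸ pow_orderOf_eq_one x
  rcases subsingleton_or_nontrivial K with hs | hs
  · exact fun a _ => Subsingleton.elim 1 a ▸ one_mem _
  set Z := (center K).map K.subtype with hZ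
  have : Z.Normal := inferInstance
  have hZ2 : IsPGroup 2 Z := hK.to_le (map_subtype_le _)
  have hZ1 : Z ≠ ⊥ := by
    rw [hZ, Ne, map_eq_bot_iff_of_injective _ K.subtype_injective, ← Ne,
      ← nontrivial_iff_ne_bot]
    exact hK.center_nontrivial
  have ho : ∀ (y : G) (p : ℕ), p.Prime → p ≠ 2 → orderOf y = p →
      orderOf (QuotientGroup.mk' Z y) = p := fun y p hp h2 hy => by
    rcases (Nat.dvd_prime hp).1 (hy ▸ orderOf_map_dvd (QuotientGroup.mk' Z) y) with h | h
    · obtain ⟨j, hj⟩ := IsPGroup.iff_orderOf.1 hZ2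
        ⟨y, (QuotientGroup.eq_one_iff y).1 (orderOf_eq_one_iff.1 h)⟩
      rw [Subgroup.orderOf_mk, hy] at hj
      exact absurd ((Nat.prime_dvd_prime_iff_eq hp Nat.prime_two).1
        (hp.dvd_of_dvd_pow hj.dvd)) h2
    · exact h
  have hq : ∀ m, (∀ y : G, ¬ m ∣ orderOf y) → ∀ y : G ⧸ Z, ¬ m ∣ orderOf y := fun m hm y hy => by
    obtain ⟨y, rfl⟩ := QuotientGroup.mk'_surjective Z y
    exact hm y (hy.trans (orderOf_map_dvd _ y))
  have := Normal.map ‹K.Normal› _ (QuotientGroup.mk'_surjective Z)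
  have hlt : Nat.card (G ⧸ Z) < n := by
    rw [← hn, card_eq_card_quotient_mul_card_subgroup Z]
    exact lt_mul_of_one_lt_right Nat.card_pos ((one_lt_card_iff_ne_bot Z).2 hZ1)
  have IH := ih _ hlt (G ⧸ Z) (K.map (QuotientGroup.mk' Z))
    (QuotientGroup.mk' Z x) (QuotientGroup.mk' Z g) rfl (hK.map _) (hq _ h26) (hq _ h12)
    (ho _ _ fact13.out (by norm_num) ox) (ho _ _ Nat.prime_three (by norm_num) og)
    (by rw [← map_pow, ← hh, map_mul, map_mul, map_inv])
  have h3 : ∀ d ∈ commutator K, ∀ c, ⁅d, c⁆ ∈ center K := fun d hd c => by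
    let φ := (QuotientGroup.mk' Z).subgroupMap K
    have h1 : φ d ∈ commutator _ := by
      have := mem_map_of_mem φ hd
      rw [_root_.commutator_def, map_commutator] at this
      exact commutator_mono le_top le_top this
    have h2 : φ ⁅d, c⁆ = 1 := by
      rw [map_commutatorElement, commutatorElement_eq_one_iff_mul_comm]
      exact (mem_center_iff.1 (IH h1) _).symm
    obtain ⟨z, hz, e⟩ : ((⁅d, c⁆ : K) : G) ∈ Z :=
      (QuotientGroup.eq_one_iff _).1 (congrArg Subtype.val h2)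
    exact (Subtype.ext e : z = _) ▸ hz
  rw [_root_.commutator_def, commutator_le]
  intro a _ b _
  rw [mem_center_iff]
  intro c
  refine (commutatorElement_eq_one_iff_mul_comm.1 (step h3 (fun i => cn (xp x i)) (cn g)
    (by rw [xp_zero, map_one]) (fun i j => by rw [← map_mul, xp_add hx])
    (fun i => by rw [← map_mul, ← map_mul, xp_conj hx hh]; rfl)
    (by rw [← map_pow, ← og, pow_orderOf_eq_one, map_one])
    (fun m hm => fix26 hK h26 (order_xp ox hm)) (fun a ha => ?_) (fun a => ?_)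
    (fun c d hc hd => ?_) a b c)).symm
  · obtain ⟨j, hj⟩ := hK a
    exact (pow_eq_one_iff_of_coprime (Nat.Coprime.pow_right j (by norm_num))).1 ⟨ha, hj⟩
  · obtain ⟨c, hc, hc'⟩ := lift hK og a
    exact ⟨c, hc, hc' _⟩
  · have h1 := fix12 hK h12 og _ hc
    have h2 := fix12 hK h12 og _ hd
    have h3 := fix12 hK h12 og (c * d) (by rw [map_mul, hc, hd])
    rw [sq] at h1 h2 h3
    calc c * d = c * (c * d * (c * d)) * d := by rw [h3, mul_one]
      _ = (c * c) * (d * c) * (d * d) := by group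
      _ = d * c := by rw [h1, h2, one_mul, mul_one]

theorem exp4 (hK : IsPGroup 2 K) (h26 : ∀ y : G, ¬ 26 ∣ orderOf y)
    (h12 : ∀ y : G, ¬ 12 ∣ orderOf y) (ox : orderOf x = 13) (og : orderOf g = 3)
    (hh : g * x * g⁻¹ = x ^ 3) {a : G} (ha : a ∈ K) : a ^ 4 = 1 := by
  have h1 : a ^ 2 ∈ (⁅K, K⁆ : Subgroup G) := by
    rw [← map_subtype_commutator]
    exact mem_map_of_mem K.subtype (sq_mem hK h26 h12 ox og hh ⟨a, ha⟩)
  have h2 := mem_map_of_mem (⁅K, K⁆ : Subgroup G).subtype
    (sq_mem (hK.to_le (der_le (M := K))) h26 h12 ox og hh ⟨_, h1⟩)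
  rw [map_subtype_commutator, commutator_eq_bot_iff.2, mem_bot] at h2
  · rw [show 4 = 2 * 2 from rfl, pow_mul]; exact h2
  · intro d hd e he
    rw [← map_subtype_commutator] at hd
    obtain ⟨d, hd, rfl⟩ := hd
    exact congrArg Subtype.val (mem_center_iff.1 (class2 _ G K x g rfl hK h26 h12 ox og hh hd)
      ⟨e, der_le he⟩)

end Cfsg.Agent.H54.Cr
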