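/-
Frobenius complements with element orders 1, 2, 3, 4, 6, 8 and their faithful modules over F13.
-/
import Cfsg.Agent.H49.Hall
import Cfsg.Agent.H3.FrobQuo
import Cfsg.Agent.S1012

set_option autoImplicit false

namespace Cfsg.Agent.H54.Cr

open Subgroup _root_.Cfsg.Agent.H49
open scoped IsMulCommutative

theorem not12 {H : Type*} [Group H] (hs : ∀ h : H, orderOf h ∣ 8 ∨ orderOf h ∣ 6) {a b : H}
    (ha : orderOf a = 4) (hb : orderOf b = 3) (c : Commute a b) : False := by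
  have := c.orderOf_mul_eq_mul_orderOf_of_coprime (by rw [ha, hb]; norm_num)
  rcases hs (a * b) with h | h <;> rw [this, ha, hb] at h <;> norm_num at h

theorem card48 {H : Type*} [Group H] [Finite H] (hs : ∀ h : H, orderOf h ∣ 8 ∨ orderOf h ∣ 6)
    (syl : ∀ (p : ℕ) [Fact p.Prime] (P : Sylow p H),
      IsCyclic P ∨ ∃ n : ℕ, Nonempty (P ≃* QuaternionGroup (2 ^ n)))
    {y w : H} (hy : orderOf y = 8) (hw : orderOf w = 3) : Nat.card H = 48 := by
  have : Fact (Nat.Prime 3) := ⟨Nat.prime_three⟩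
  have h9 : ¬ 9 ∣ Nat.card H := fun h9 => by
    obtain ⟨P⟩ : Nonempty (Sylow 3 H) := inferInstance
    have h1 : 3 ^ 2 ∣ Nat.card P := P.pow_dvd_card_of_pow_dvd_card h9
    rcases syl 3 P with hc | ⟨n, ⟨e⟩⟩
    · obtain ⟨g, hg⟩ := hc.exists_ofOrder_eq_natCard
      rw [← hg, ← Subgroup.orderOf_coe] at h1
      rcases hs g with h | h <;> exact absurd (h1.trans h) (by norm_num)
    · rw [Nat.card_congr e.toEquiv, Nat.card_eq_fintype_card, QuaternionGroup.card,
        show 4 * 2 ^ n = 2 ^ (n + 2) by ring] at h1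
      exact absurd (Nat.prime_three.dvd_of_dvd_pow ((dvd_pow_self 3 two_ne_zero).trans h1))
        (by norm_num)
  have hy2 : IsPGroup 2 (zpowers y) := IsPGroup.of_card (n := 3) (by rw [Nat.card_zpowers, hy]; rfl)
  obtain ⟨P, hP⟩ := hy2.exists_le_sylow
  have h8 : 8 ∣ Nat.card H := hy ▸ orderOf_dvd_natCard y
  have hnc : ¬ IsCyclic P := fun hc => by
    have hm : (Nat.card H).minFac = 2 :=
      (Nat.minFac_eq_two_iff _).2 ((show 2 ∣ 8 by norm_num).trans h8)
    have hcomp := hc.isComplement' hm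
    set K := (MonoidHom.transferSylow P (hc.normalizer_le_centralizer hm)).ker with hK
    have hwK : ∀ v : H, orderOf v = 3 → v ∈ K := fun v hv => by
      obtain ⟨j, hj⟩ := P.isPGroup' (MonoidHom.transferSylow P (hc.normalizer_le_centralizer hm) v)
      refine (pow_eq_one_iff_of_coprime (Nat.Coprime.pow_right j (show Nat.Coprime 3 2 by
        norm_num))).1 ⟨?_, hj⟩
      rw [← map_pow, ← hv, pow_orderOf_eq_one, map_one]
    have hK3 : Nat.card K = 3 := by
      have h3 : 3 ∣ Nat.card K := hw ▸ K.orderOf_dvd_natCard (hwK w hw)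
      obtain ⟨m, hm'⟩ := h3
      by_contra hne
      have hm1 : m ≠ 1 := fun h => hne (by rw [hm', h])
      obtain ⟨r, hr, hrm⟩ := Nat.exists_prime_and_dvd hm1
      have : Fact r.Prime := ⟨hr⟩
      have hrK : r ∣ Nat.card K := hm' ▸ hrm.mul_left 3
      obtain ⟨g, hg⟩ := exists_prime_orderOf_dvd_card' r (hrK.trans K.card_subgroup_dvd_card)
      have h23 : r = 2 ∨ r = 3 := by
        rcases hs g with h | h <;> rw [hg] at h
        · exact Or.inl ((Nat.prime_dvd_prime_iff_eq hr Nat.prime_two).1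
            (hr.dvd_of_dvd_pow (show r ∣ 2 ^ 3 from h)))
        · exact ((Nat.Prime.dvd_mul hr).1 (show r ∣ 2 * 3 from h)).imp
            (Nat.prime_dvd_prime_iff_eq hr Nat.prime_two).1
            (Nat.prime_dvd_prime_iff_eq hr Nat.prime_three).1
      rcases h23 with rfl | rfl
      · exact P.not_dvd_index (hcomp.index_eq_card ▸ hrK)
      · exact h9 ((show 3 * 3 ∣ Nat.card K from hm' ▸ Nat.mul_dvd_mul_left 3 hrm).trans
          K.card_subgroup_dvd_card)
    have hz : zpowers w = K := eq_of_le_of_card_ge (zpowers_le.2 (hwK w hw))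
      (by rw [hK3, Nat.card_zpowers, hw])
    have h1 : y * w * y⁻¹ ∈ zpowers w := hz ▸ (inferInstance : K.Normal).conj_mem w (hwK w hw) y
    obtain ⟨k, hk⟩ := mem_powers_iff_mem_zpowers.2 h1
    simp only at hk
    have hk2 : w ^ (k * k) = w := by
      have h3 : ¬ 3 ∣ k := fun h3 => by
        rw [← hw, orderOf_dvd_iff_pow_eq_one, hk, conj_eq_one_iff] at h3
        simp [h3] at hw
      rw [pow_eq_pow_mod _ (hw ▸ pow_orderOf_eq_one w : w ^ 3 = 1),
        show k * k % 3 = 1 by rw [Nat.mul_mod]; have : k % 3 = 1 ∨ k % 3 = 2 := by omega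
                              rcases this with h | h <;> rw [h], pow_one]
    refine not12 hs (a := y ^ 2) (by rw [orderOf_pow' _ two_ne_zero, hy]; rfl) hw ?_
    rw [commute_iff_eq, ← mul_inv_eq_iff_eq_mul]
    calc y ^ 2 * w * (y ^ 2)⁻¹ = y * (y * w * y⁻¹) * y⁻¹ := by rw [sq]; group
      _ = w := by rw [← hk, ← conj_pow, ← hk, ← pow_mul, hk2]
  have h16 : Nat.card P = 16 := by
    obtain ⟨n, ⟨e⟩⟩ := (syl 2 P).resolve_left hnc
    have hc : Nat.card P = 4 * 2 ^ n := by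
      rw [Nat.card_congr e.toEquiv, Nat.card_eq_fintype_card, QuaternionGroup.card]
    have h1 : orderOf ((e.symm (QuaternionGroup.a 1) : P) : H) = 2 * 2 ^ n := by
      rw [Subgroup.orderOf_coe, MulEquiv.orderOf_eq, QuaternionGroup.orderOf_a_one]
    have h2 : orderOf (⟨y, hP (mem_zpowers y)⟩ : P) = 8 := by rw [Subgroup.orderOf_mk, hy]
    have h3 : 8 ∣ Nat.card P := h2 ▸ orderOf_dvd_natCard _
    have h4 : Nat.card P ≠ 8 := fun h => hnc (isCyclic_of_orderOf_eq_card _ (h2.trans h.symm))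
    have h5 := hs (e.symm (QuaternionGroup.a 1) : P)
    rw [h1] at h5
    rw [hc] at h3
    rw [hc] at h4 ⊢
    have h6 : n < 3 := by
      by_contra h
      have : 2 * 2 ^ 3 ∣ 2 * 2 ^ n := Nat.mul_dvd_mul_left 2 (pow_dvd_pow 2 (by omega))
      rcases h5 with h5 | h5 <;> exact absurd (this.trans h5) (by norm_num)
    interval_cases n <;> simp_all
  have h48 : 16 * 3 ∣ Nat.card H := Nat.Coprime.mul_dvd_of_dvd_of_dvd (by norm_num)
    (h16 ▸ P.1.card_subgroup_dvd_card) (hw ▸ orderOf_dvd_natCard w)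
  obtain ⟨m, hm'⟩ := h48
  by_contra hne
  have hm1 : m ≠ 1 := fun h => hne (by rw [hm', h])
  obtain ⟨r, hr, hrm⟩ := Nat.exists_prime_and_dvd hm1
  have : Fact r.Prime := ⟨hr⟩
  obtain ⟨g, hg⟩ := exists_prime_orderOf_dvd_card' r (hm' ▸ hrm.mul_left _ : r ∣ Nat.card H)
  obtain ⟨l, rfl⟩ := hrm
  have h23 : r = 2 ∨ r = 3 := by
    rcases hs g with h | h <;> rw [hg] at h
    · exact Or.inl ((Nat.prime_dvd_prime_iff_eq hr Nat.prime_two).1
        (hr.dvd_of_dvd_pow (show r ∣ 2 ^ 3 from h)))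
    · exact ((Nat.Prime.dvd_mul hr).1 (show r ∣ 2 * 3 from h)).imp
        (Nat.prime_dvd_prime_iff_eq hr Nat.prime_two).1
        (Nat.prime_dvd_prime_iff_eq hr Nat.prime_three).1
  rcases h23 with rfl | rfl
  · have : 2 ^ 5 ∣ Nat.card P := P.pow_dvd_card_of_pow_dvd_card ⟨3 * l, by rw [hm']; ring⟩
    rw [h16] at this
    norm_num at this
  · exact h9 ⟨16 * l, by rw [hm']; ring⟩

theorem quo_s4 {H : Type*} [Group H] [Finite H] (hs : ∀ h : H, orderOf h ∣ 8 ∨ orderOf h ∣ 6)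
    (h48 : Nat.card H = 48) {z : H} (hz : orderOf z = 2) (hu : ∀ t, orderOf t = 2 → t = z)
    [(zpowers z).Normal] : Nonempty (H ⧸ zpowers z ≃* Equiv.Perm (Fin 4)) := by
  refine S1012.result ?_ fun g hg => ?_
  · have := card_eq_card_quotient_mul_card_subgroup (zpowers z)
    rw [h48, Nat.card_zpowers, hz] at this
    omega
  · obtain ⟨g, rfl⟩ := QuotientGroup.mk'_surjective _ g
    have h1 : 6 ∣ orderOf g := hg ▸ orderOf_map_dvd _ g
    have h2 : orderOf g = 6 := by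
      rcases hs g with h | h
      · exact absurd (h1.trans h) (by norm_num)
      · exact Nat.dvd_antisymm h h1
    have h3 : g ^ 3 = z := hu _ (by rw [orderOf_pow' _ three_ne_zero, h2]; rfl)
    have h4 : QuotientGroup.mk' (zpowers z) g ^ 3 = 1 := by
      rw [← map_pow, h3]; exact (QuotientGroup.eq_one_iff z).2 (mem_zpowers z)
    rw [← orderOf_dvd_iff_pow_eq_one, hg] at h4
    norm_num at h4

theorem a4_words : ∀ σ : Equiv.Perm (Fin 4), Equiv.Perm.sign σ = 1 → ∃ k l : Fin 3,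
    σ = (Equiv.swap 0 1 * Equiv.swap 1 2) ^ (k : ℕ) ∨
    σ = (Equiv.swap 0 1 * Equiv.swap 1 2) ^ (k : ℕ) * (Equiv.swap 0 1 * Equiv.swap 2 3) *
      (Equiv.swap 0 1 * Equiv.swap 1 2) ^ (l : ℕ) := by
  decide +kernel

theorem card_le {G : Type*} [Group G] [Finite G] {V H : Subgroup G} [V.Normal] [IsMulCommutative V]
    (h13 : ∀ v ∈ V, v ^ 13 = 1) (hV : V ≠ ⊥)
    (hmin : ∀ L : Subgroup G, L.Normal → L ≤ V → L = ⊥ ∨ L = V) (hVH : V ⊔ H = ⊤)
    (hreg : Semiregular V H) {z : H} (hz : orderOf z = 2) (hu : ∀ t, orderOf t = 2 → t = z)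
    (hinv : ∀ v ∈ V, z * v * (z : G)⁻¹ = v⁻¹) (π : H →* Equiv.Perm (Fin 4))
    (hπ : Function.Surjective π) (hker : π.ker = zpowers z) : Nat.card V ∣ 13 ^ 4 := by
  have nV : V.Normal := inferInstance
  have hzz : z * z = 1 := by rw [← sq, ← hz, pow_orderOf_eq_one]
  have hk : ∀ t, π t = 1 → t = 1 ∨ t = z := fun t ht => by
    classical
    have : t ∈ zpowers z := hker ▸ ht
    rw [mem_zpowers_iff_mem_range_orderOf, hz] at this
    simpa [Finset.range_add_one, eq_comm, or_comm] using this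
  have hπz : π z = 1 := by rw [← MonoidHom.mem_ker, hker]; exact mem_zpowers z
  have hcz : ∀ t : H, t * z = z * t := fun t => by
    rw [← mul_inv_eq_iff_eq_mul]
    exact hu _ (by rw [← MulAut.conj_apply, MulEquiv.orderOf_eq, hz])
  have three : ∀ t : H, π t ^ 3 = 1 → π t ≠ 1 → ∃ s : H, (s = t ∨ s = t * z) ∧
      ∀ v ∈ V, v * (s * v * (s : G)⁻¹) * ((s : G)⁻¹ * v * s) = 1 := by
    intro t h3 h1
    obtain ⟨s, hs, hs3⟩ : ∃ s : H, (s = t ∨ s = t * z) ∧ s ^ 3 = 1 := by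
      rcases hk (t ^ 3) (by rw [map_pow, h3]) with h | h
      · exact ⟨t, Or.inl rfl, h⟩
      · refine ⟨t * z, Or.inr rfl, ?_⟩
        rw [Commute.mul_pow (hcz t), h, pow_three, hzz, mul_one, hzz]
    refine ⟨s, hs, fun v hv => ?_⟩
    have hs1 : (s : G) ≠ 1 := fun h => h1 (by
      have h' : π s = 1 := by rw [show s = 1 from Subtype.ext h, map_one]
      rcases hs with rfl | rfl
      · exact h'
      · rwa [map_mul, hπz, mul_one] at h')
    have e3 : (s : G) * s = (s : G)⁻¹ := by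
      rw [eq_inv_iff_mul_eq_one, ← pow_three']
      exact congrArg Subtype.val hs3
    have m1 := nV.conj_mem v hv s
    have m2 := nV.conj_mem' v hv s
    rw [← mem_bot, ← hreg s s.2 hs1]
    refine ⟨mul_mem (mul_mem hv m1) m2, mem_cent1.2 ?_⟩
    have c := fun a ha b hb => (abelian_iff.1 ‹IsMulCommutative V› ha b hb : b * a = a * b)
    rw [eq_comm, ← mul_inv_eq_iff_eq_mul]
    calc _ = (s : G) * v * (s : G)⁻¹ * ((s * s) * v * (s * s : G)⁻¹) * v := by group
      _ = _ := by rw [e3, inv_inv, mul_assoc v, c _ (mul_mem m1 m2) _ hv]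
  obtain ⟨i, hi⟩ := hπ (Equiv.swap 0 1 * Equiv.swap 2 3)
  obtain ⟨w0, hw0⟩ := hπ (Equiv.swap 0 1 * Equiv.swap 1 2)
  obtain ⟨s, hs⟩ := hπ (Equiv.swap 0 1)
  obtain ⟨w, hw1, hw⟩ := three w0 (by rw [hw0]; decide) (by rw [hw0]; decide)
  have hπw : π w = Equiv.swap 0 1 * Equiv.swap 1 2 := by
    rcases hw1 with rfl | rfl
    · exact hw0
    · rw [map_mul, hπz, mul_one, hw0]
  have hii : i * i = z := by
    rcases hk (i * i) (by rw [map_mul, hi]; decide) with h | h
    · have h1 : i ≠ 1 := fun h => by rw [h, map_one] at hi; revert hi; decide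
      have := hu i (orderOf_eq_prime (by rw [sq, h]) h1)
      rw [this, hπz] at hi
      exact absurd hi (by decide)
    · exact h
  obtain ⟨v, hv, hv1, hiv⟩ : ∃ v ∈ V, v ≠ 1 ∧ i * v * (i : G)⁻¹ ∈ zpowers v := by
    obtain ⟨u, hu1⟩ := ne_bot_iff_exists_ne_one.1 hV
    let φ : MulAut V := MulAut.conjNormal (i : G)
    have h2 : φ (φ u) = u⁻¹ := Subtype.ext (by
      rw [← MulAut.mul_apply, ← map_mul, ← Subgroup.coe_mul, hii, MulAut.conjNormal_apply,
        hinv _ u.2, Subgroup.coe_inv])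
    have h3 : u ^ 13 = 1 := Subtype.ext (h13 _ u.2)
    by_cases h0 : φ u * u ^ 5 = 1
    · refine ⟨u, u.2, fun h => hu1 (Subtype.ext h), ?_⟩
      rw [← MulAut.conjNormal_apply, show MulAut.conjNormal (i : G) u = (u ^ 5)⁻¹ from
        eq_inv_of_mul_eq_one_left h0]
      exact inv_mem (pow_mem (mem_zpowers _) 5)
    · refine ⟨(φ u * u ^ 5 : V), SetLike.coe_mem _, fun h => h0 (Subtype.ext h), ?_⟩
      have : φ (φ u * u ^ 5) = (φ u * u ^ 5) ^ 5 := by
        rw [map_mul, h2, map_pow, mul_pow, mul_comm, ← pow_mul, mul_left_cancel_iff,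
          inv_eq_iff_mul_eq_one, ← pow_succ', show 5 * 5 + 1 = 13 * 2 from rfl, pow_mul, h3, one_pow]
      rw [← MulAut.conjNormal_apply, show MulAut.conjNormal (i : G) _ = _ from this]
      exact pow_mem (mem_zpowers _) 5
  set W0 := zpowers v ⊔ zpowers (w * v * (w : G)⁻¹) with hW0
  have m0 : v ∈ W0 := mem_sup_left (mem_zpowers _)
  have m1 : w * v * (w : G)⁻¹ ∈ W0 := mem_sup_right (mem_zpowers _)
  have crit : ∀ t : G, t * v * t⁻¹ ∈ W0 → t * (w * v * (w : G)⁻¹) * t⁻¹ ∈ W0 → t ∈ 𝒩(W0) :=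
    fun t h1 h2 => mem_norm_of_cj_le (by
      rw [hW0, cj_sup, cj_zpowers, cj_zpowers]
      exact sup_le (zpowers_le.2 h1) (zpowers_le.2 h2))
  have le0 : W0 ≤ V := sup_le (zpowers_le.2 hv) (zpowers_le.2 (nV.conj_mem v hv w))
  have nz : (z : G) ∈ 𝒩(W0) := crit z (by rw [hinv v hv]; exact inv_mem m0)
    (by rw [hinv _ (le0 m1)]; exact inv_mem m1)
  have cj1 : ∀ t : G, t ∈ 𝒩(W0) → ∀ u ∈ W0, t * u * t⁻¹ ∈ W0 := fun t ht u hu =>
    conj_mem_of_norm le_rfl ht hu
  have nw : (w : G) ∈ 𝒩(W0) := by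
    refine inv_mem_iff.1 (crit _ ?_ (by simpa [mul_assoc] using m0))
    rw [inv_inv, eq_inv_of_mul_eq_one_right (hw v hv)]
    exact inv_mem (mul_mem m0 m1)
  have ni : (i : G) ∈ 𝒩(W0) := by
    have hiv0 : i * v * (i : G)⁻¹ ∈ W0 := mem_sup_left hiv
    refine crit i hiv0 ?_
    obtain ⟨y, hy1, hy⟩ := three (i * w) (by rw [map_mul, hi, hπw]; decide)
      (by rw [map_mul, hi, hπw]; decide)
    have a1 : (i : G)⁻¹ * v * i ∈ W0 := by
      have := cj1 _ (inv_mem nz) _ hiv0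
      rw [← hii, Subgroup.coe_mul] at this
      simpa [mul_assoc] using this
    have a2 := cj1 _ (inv_mem nw) _ a1
    have a3 : (y : G)⁻¹ * v * y ∈ W0 := by
      rcases hy1 with rfl | rfl
      · simpa [mul_assoc] using a2
      · simpa [mul_assoc] using cj1 _ (inv_mem nz) _ a2
    have a4 : y * v * (y : G)⁻¹ ∈ W0 := by
      have := mul_mem (inv_mem m0) (inv_mem a3)
      have e := eq_inv_of_mul_eq_one_left (hy v hv)
      rw [← e, inv_mul_cancel_left] at this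
      exact this
    rcases hy1 with rfl | rfl
    · simpa [mul_assoc] using a4
    · have := inv_mem a4
      rw [show ((i * w * z : H) : G) * v * ((i * w * z : H) : G)⁻¹ =
        i * (w * (z * v * (z : G)⁻¹) * (w : G)⁻¹) * (i : G)⁻¹ by simp [mul_assoc], hinv v hv] at this
      simpa [mul_assoc] using this
  have even : ∀ t : H, Equiv.Perm.sign (π t) = 1 → (t : G) ∈ 𝒩(W0) := fun t ht => by
    have key : ∀ t' : H, (t' : G) ∈ 𝒩(W0) → π t = π t' → (t : G) ∈ 𝒩(W0) := fun t' h1 h2 => by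
      rcases hk (t'⁻¹ * t) (by rw [map_mul, map_inv, h2, inv_mul_cancel]) with h | h
      · rw [inv_mul_eq_one] at h; exact h ▸ h1
      · rw [inv_mul_eq_iff_eq_mul] at h; rw [h]; exact mul_mem h1 nz
    obtain ⟨k, l, h | h⟩ := a4_words _ ht
    · exact key (w ^ (k : ℕ)) (pow_mem nw _) (by rw [map_pow, hπw, h])
    · exact key (w ^ (k : ℕ) * i * w ^ (l : ℕ)) (mul_mem (mul_mem (pow_mem nw _) ni) (pow_mem nw _))
        (by rw [map_mul, map_mul, map_pow, map_pow, hπw, hi, h])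
  have le1 : cj (s : G) W0 ≤ V := cj_le_of_mem_norm le0 (le_normalizer_of_normal (mem_top _))
  have ab : ∀ A B : Subgroup G, A ≤ V → B ≤ V → A ≤ 𝒩(B) := fun A B hA hB =>
    norm_of_cent (le_cent_of_abelian ‹_› hA hB)
  have hs1 : Equiv.Perm.sign (π s) = -1 := by rw [hs]; decide
  have nW : (W0 ⊔ cj (s : G) W0).Normal := by
    rw [normal_iff_top_le_norm, ← hVH]
    refine sup_le (ab _ _ le_rfl (sup_le le0 le1)) fun t ht => mem_norm_iff_cj.2 ?_
    rw [cj_sup, cj_cj]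
    rcases Int.units_eq_one_or (Equiv.Perm.sign (π ⟨t, ht⟩)) with h | h
    · have e1 := cj_eq_of_mem_norm (even _ h)
      have e2 := cj_eq_of_mem_norm (even (s⁻¹ * ⟨t, ht⟩ * s) (by simp [h, hs1]))
      rw [e1, ← show (s : G) * (s⁻¹ * ⟨t, ht⟩ * s : H) = t * s by simp [mul_assoc], cj_mul, e2]
    · have e1 := cj_eq_of_mem_norm (even (⟨t, ht⟩ * s) (by simp [h, hs1]))
      have e2 := cj_eq_of_mem_norm (even (s⁻¹ * ⟨t, ht⟩) (by simp [h, hs1]))
      rw [show cj (t * s) W0 = W0 from e1, ← show (s : G) * (s⁻¹ * ⟨t, ht⟩ : H) = t by simp, cj_mul,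
        e2, sup_comm]
  have hW : W0 ⊔ cj (s : G) W0 = V := (hmin _ nW (sup_le le0 le1)).resolve_left fun h =>
    hv1 (mem_bot.1 (h ▸ mem_sup_left m0))
  have c1 : ∀ u ∈ V, Nat.card (zpowers u) ∣ 13 := fun u hu => by
    rw [Nat.card_zpowers]; exact orderOf_dvd_of_pow_eq_one (h13 u hu)
  have c2 : Nat.card W0 ∣ 13 * 13 := (card_sup_dvd (Or.inl (ab _ _ (zpowers_le.2 hv)
    (zpowers_le.2 (le0 m1))))).trans (mul_dvd_mul (c1 _ hv) (c1 _ (le0 m1)))
  rw [← hW]
  refine (card_sup_dvd (Or.inl (ab _ _ le0 le1))).trans ?_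
  rw [card_cj]
  exact (mul_dvd_mul c2 c2).trans (by norm_num)

end Cfsg.Agent.H54.Cr
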