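/-
Solvable groups with element orders among 1, 2, 3, 4, 6, 8, 13 and no normal 13-subgroup
have no element of order 8.
-/
import Cfsg.Agent.H54.CrAmb
import Cfsg.Agent.H54.CrFrob
import Cfsg.Agent.H49.Frob
import Cfsg.Agent.H19.Nilp
import Cfsg.Agent.H2.MinNormal

set_option autoImplicit false

namespace Cfsg.Agent.H54.Cr

open Subgroup _root_.Cfsg.Agent.H49
open scoped IsMulCommutative

universe u

variable {G : Type u} [Group G] [Finite G]

/-- the possible element orders -/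
def Om (G : Type u) [Group G] : Prop := ∀ g : G, orderOf g ∣ 8 ∨ orderOf g ∣ 6 ∨ orderOf g = 13

omit [Finite G] in
theorem Om.cent (hΩ : Om G) {x b : G} (ox : orderOf x = 13) (c : b * x = x * b) {m : ℕ}
    (hm : ¬ 13 ∣ m) (hb : b ^ m = 1) : b = 1 := by
  have h1 : (orderOf x).Coprime (orderOf b) := ox ▸ (Nat.Prime.coprime_iff_not_dvd fact13.out).2
    fun h => hm (h.trans (orderOf_dvd_of_pow_eq_one hb))
  have h2 := (show Commute x b from c.symm).orderOf_mul_eq_mul_orderOf_of_coprime h1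
  rw [ox] at h2
  rcases hΩ (x * b) with h | h | h <;> rw [h2] at h
  · exact absurd ((Dvd.intro _ rfl).trans h) (by norm_num)
  · exact absurd ((Dvd.intro _ rfl).trans h) (by norm_num)
  · exact orderOf_eq_one_iff.1 (by omega)

theorem setup [Group.IsSolvable G] (hΩ : Om G) (h13 : 13 ∣ Nat.card G)
    (hO : ∀ V : Subgroup G, V.Normal → IsPGroup 13 V → V = ⊥) :
    ∃ (N : Subgroup G) (x : G), N.Normal ∧ N ≠ ⊥ ∧ ¬ 13 ∣ Nat.card N ∧ orderOf x = 13 ∧
      ∀ y : G, ∃ n ∈ N, ∃ (b : G) (k : ℕ), y = n * b ∧ b * x * b⁻¹ = x ^ k := by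
  obtain ⟨N, ⟨nN, hN⟩, hmax⟩ := (Set.toFinite {N : Subgroup G | N.Normal ∧ ¬ 13 ∣ Nat.card N}
    ).exists_maximal ⟨⊥, inferInstance, by simp⟩
  have hN1 : N ≠ ⊤ := fun h => hN (by rwa [h, card_top])
  have : Nontrivial (G ⧸ N) := QuotientGroup.nontrivial_iff.2 hN1
  obtain ⟨B, p, hp, nB, hB1, abB, pB, -, -⟩ := H2.exists_minimal_normal_of_solvable (G := G ⧸ N)
  set M := B.comap (QuotientGroup.mk' N) with hM
  have hNM : N ≤ M := fun n hn => by
    rw [hM, mem_comap, show QuotientGroup.mk' N n = 1 from (QuotientGroup.eq_one_iff n).2 hn]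
    exact one_mem _
  have hMB : M.map (QuotientGroup.mk' N) = B :=
    map_comap_eq_self_of_surjective (QuotientGroup.mk'_surjective N) B
  obtain rfl : p = 13 := by
    by_contra hp13
    have := Fact.mk hp
    have h1 : ¬ 13 ∣ Nat.card M := fun h => by
      obtain ⟨g, hg⟩ := exists_prime_orderOf_dvd_card' (G := M) 13 h
      obtain ⟨j, hj⟩ := pB ⟨_, g.2⟩
      have h2 : ((g : G) ^ p ^ j) ∈ N := by
        rw [← QuotientGroup.eq_one_iff, QuotientGroup.mk_pow]; exact congrArg Subtype.val hj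
      have h3 := N.orderOf_dvd_natCard h2
      rw [← Subgroup.orderOf_coe] at hg
      rw [Nat.Coprime.orderOf_pow, hg] at h3
      · exact hN h3
      · exact hg ▸ Nat.Coprime.pow_right _ ((Nat.coprime_primes fact13.out hp).2 (Ne.symm hp13))
    have h2 : M ≤ N := hmax ⟨inferInstance, h1⟩ hNM
    rw [← hMB, Ne, Subgroup.map_eq_bot_iff, QuotientGroup.ker_mk'] at hB1
    exact hB1 h2
  have hN0 : N ≠ ⊥ := fun h => by
    have h1 : IsPGroup 13 M := pB.comap_of_ker_isPGroup _ (by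
      rw [QuotientGroup.ker_mk', h]; exact IsPGroup.of_bot)
    rw [← hMB, hO M inferInstance h1, Subgroup.map_bot] at hB1
    exact hB1 rfl
  obtain ⟨P⟩ : Nonempty (Sylow 13 G) := inferInstance
  have hBP := pB.le_sylow_of_normal (P.mapSurjective (QuotientGroup.mk'_surjective N))
  have hdec : ∀ m ∈ M, ∃ n ∈ N, ∃ q ∈ (P : Subgroup G) ⊓ M, m = n * q := fun m hm => by
    obtain ⟨q, hq, e⟩ := hBP hm
    refine ⟨m * q⁻¹, ?_, q, ⟨hq, ?_⟩, by simp⟩
    · rw [← QuotientGroup.eq_one_iff, QuotientGroup.mk_mul, QuotientGroup.mk_inv,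
        mul_inv_eq_one]
      exact e.symm
    · change _ ∈ B
      rw [e]; exact hm
  have hcop : (Nat.card ↥((P : Subgroup G) ⊓ M)).Coprime (Nat.card N) := by
    obtain ⟨j, hj⟩ := (P.isPGroup'.to_inf_left (K := M)).exists_card_eq
    rw [hj]
    exact Nat.Coprime.pow_left _ ((Nat.Prime.coprime_iff_not_dvd fact13.out).2 hN)
  have ho : ∀ a ∈ (P : Subgroup G) ⊓ M, a ≠ 1 → orderOf a = 13 := fun a ha h1 => by
    obtain ⟨j, hj⟩ := IsPGroup.iff_orderOf.1 P.isPGroup' ⟨a, ha.1⟩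
    rw [Subgroup.orderOf_mk] at hj
    have h2 : 13 ∣ orderOf a := hj ▸ dvd_pow_self 13 fun h => h1 (by simpa [h] using hj)
    rcases hΩ a with h | h | h
    · exact absurd (h2.trans h) (by norm_num)
    · exact absurd (h2.trans h) (by norm_num)
    · exact h
  have hab : IsMulCommutative ↥((P : Subgroup G) ⊓ M) := abelian_iff.2 fun a ha b hb => by
    rw [← mul_inv_eq_one, ← mem_bot, ← H49.inf_eq_bot_of_coprime hcop]
    refine mem_inf.2 ⟨mul_mem (mul_mem hb ha) (inv_mem (mul_mem ha hb)), ?_⟩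
    rw [← QuotientGroup.eq_one_iff, QuotientGroup.mk_mul, QuotientGroup.mk_inv,
      mul_inv_eq_one]
    exact abelian_iff.1 abB ha.2 _ hb.2
  have hcyc : IsCyclic ↥((P : Subgroup G) ⊓ M) := by
    by_contra hc
    refine hN0 (le_bot_iff.1 (coprime_le_of_cent1 hab hc le_normalizer_of_normal hcop
      fun a ha h1 v hv => ?_))
    exact hΩ.cent (ho a ha h1) (mem_cent1.1 hv.2) hN
      (orderOf_dvd_iff_pow_eq_one.1 (N.orderOf_dvd_natCard hv.1))
  obtain ⟨x, hx⟩ := (Subgroup.isCyclic_iff_exists_zpowers_eq_top _).1 hcyc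
  have hx1 : x ≠ 1 := fun h => by
    rw [← hMB, Ne, Subgroup.map_eq_bot_iff, QuotientGroup.ker_mk'] at hB1
    refine hB1 fun m hm => ?_
    obtain ⟨n, hn, q, hq, rfl⟩ := hdec m hm
    rw [← hx, h, zpowers_one_eq_bot, mem_bot] at hq
    simpa [hq] using hn
  refine ⟨N, x, nN, hN0, hN, ho x (hx ▸ mem_zpowers x) hx1, fun y => ?_⟩
  obtain ⟨m, hm, c, hc, rfl⟩ := (frattini_arg (M := ⊤) le_top le_normalizer_of_normal
    ((sylowOf_top fact13.out P).inf_normal le_top (le_normalizer_of_normal (H := M)))).2.2 y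
    (mem_top y)
  obtain ⟨n, hn, q, hq, rfl⟩ := hdec m hm
  have h1 := conj_mem_of_norm le_rfl (mul_mem (le_normalizer hq) hc.2) (hx ▸ mem_zpowers x)
  rw [← hx] at h1
  obtain ⟨k, hk⟩ := mem_powers_iff_mem_zpowers.2 h1
  exact ⟨n, hn, q * c, k, mul_assoc _ _ _, hk.symm⟩

theorem two_false [Group.IsSolvable G] (hΩ : Om G) (h13 : 13 ∣ Nat.card G)
    (hO : ∀ V : Subgroup G, V.Normal → IsPGroup 13 V → V = ⊥) {y u : G} (oy : orderOf y = 8)
    (ou : orderOf u = 3) : False := by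
  obtain ⟨N, x, nN, hN0, hN, ox, dec⟩ := setup hΩ h13 hO
  have hx : x ^ 13 = 1 := ox ▸ pow_orderOf_eq_one x
  have x1 : xp x 1 = x := by simpa using xp_cast hx 1
  have act : ∀ {b : G} {k : ℕ}, b * x * b⁻¹ = x ^ k → ∀ j : ℕ,
      (b ^ j * x = x * b ^ j ↔ (k : Z13) ^ j = 1) := fun {b k} h j => by
    have := xp_conj_pow hx h j 1
    rw [x1, mul_one] at this
    rw [this, mul_left_inj]
    refine ⟨fun e => ?_, fun e => by rw [e, x1]⟩
    by_contra hne
    have h2 := order_xp ox (sub_ne_zero.2 hne)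
    rw [sub_eq_add_neg, ← xp_add hx, e.trans x1.symm, xp_add hx, add_neg_cancel, xp_zero] at h2
    simp at h2
  have cN : ∀ (x' : G), orderOf x' = 13 → ∀ v ∈ N, v * x' = x' * v → v = 1 := fun x' h v hv c =>
    hΩ.cent h c hN (orderOf_dvd_iff_pow_eq_one.1 (N.orderOf_dvd_natCard hv))
  have inN : ∀ {b : G} {k : ℕ}, b * x * b⁻¹ = x ^ k → ∀ j : ℕ, b ^ j ∈ N → b ^ j = 1 :=
    fun {b k} h j hj => by
      refine cN x ox _ hj ?_
      have e := xp_conj_pow hx h j 1
      rw [x1, mul_one] at e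
      have h1 : b ^ j * x * (b ^ j)⁻¹ * x⁻¹ ∈ N ⊓ zpowers x := ⟨by
        rw [mul_assoc (b ^ j), mul_assoc (b ^ j)]
        exact mul_mem hj (nN.conj_mem _ (inv_mem hj) x), by
        rw [e, mul_inv_cancel_right]
        exact Subgroup.mul_mem _ (Subgroup.pow_mem _ (mem_zpowers x) _)
          (Subgroup.inv_mem _ (mem_zpowers x))⟩
      rw [H49.inf_eq_bot_of_coprime (by
        rw [Nat.card_zpowers, ox]
        exact ((Nat.Prime.coprime_iff_not_dvd fact13.out).2 hN).symm), mem_bot] at h1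
      rwa [mul_inv_eq_one, mul_inv_eq_iff_eq_mul] at h1
  have pw : ∀ n ∈ N, ∀ (b : G) (j : ℕ), (n * b) ^ j ∈ N ↔ b ^ j ∈ N := fun n hn b j => by
    rw [← QuotientGroup.eq_one_iff, ← QuotientGroup.eq_one_iff, QuotientGroup.mk_pow,
      QuotientGroup.mk_mul, (QuotientGroup.eq_one_iff n).2 hn, one_mul, QuotientGroup.mk_pow]
  have pw1 : ∀ n ∈ N, ∀ {b : G} {k : ℕ}, b * x * b⁻¹ = x ^ k → ∀ j : ℕ, orderOf (n * b) ∣ j →
      b ^ j = 1 ∧ (k : Z13) ^ j = 1 := fun n hn b k h j hj => by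
    have := inN h j ((pw n hn b j).1 (by rw [orderOf_dvd_iff_pow_eq_one.1 hj]; exact one_mem _))
    exact ⟨this, (act h j).1 (by simp [this])⟩
  have fx : ∀ (K : Subgroup G) [K.Normal], K ≤ N → ∀ a : K, cn (xp x 1) a = a → a = 1 :=
    fun K _ hK a ha => Subtype.ext (cN x ox _ (hK a.2) (by
      rw [x1] at ha
      exact (mul_inv_eq_iff_eq_mul.1 (congrArg Subtype.val ha)).symm))
  have hy8 : y ^ 8 = 1 := oy ▸ pow_orderOf_eq_one y
  obtain ⟨n, hn, b, k, rfl, hb⟩ := dec y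
  obtain ⟨b8, k8⟩ := pw1 n hn hb 8 oy.dvd
  have : Fact (Nat.Prime 3) := ⟨Nat.prime_three⟩
  by_cases h3 : 3 ∣ Nat.card N
  · have nil : Group.IsNilpotent N := frob_nilpotent inferInstance (R := zpowers x)
      le_normalizer_of_normal (by rw [Ne, zpowers_eq_bot]; rintro rfl; simp at ox)
      (semiregular_of_prime_card (by rw [Nat.card_zpowers, ox]; exact fact13.out) (by
        rw [cent_zpowers, eq_bot_iff]
        exact fun v hv => cN x ox v hv.1 (mem_cent1.1 hv.2)))
    have hb2 : b ^ 2 ≠ 1 := fun h => by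
      obtain ⟨t, ht⟩ := exists_prime_orderOf_dvd_card' (G := N) 3 h3
      have m2 := (pw n hn b 2).2 (h ▸ one_mem _)
      have o4 : orderOf ((n * b) ^ 2) = 4 := by rw [orderOf_pow' _ two_ne_zero, oy]; rfl
      have c : Commute ((n * b) ^ 2) t := congrArg Subtype.val (H19.commute_of_coprime_pow
        (m := 4) (n := 3) (by norm_num) (⟨_, m2⟩ : N) t
        (Subtype.ext (o4 ▸ pow_orderOf_eq_one _ :)) (ht ▸ pow_orderOf_eq_one t))
      have := c.orderOf_mul_eq_mul_orderOf_of_coprime (by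
        rw [o4, Subgroup.orderOf_coe, ht]; norm_num)
      rw [o4, Subgroup.orderOf_coe, ht] at this
      rcases hΩ ((n * b) ^ 2 * t) with h | h | h <;> rw [this] at h <;> norm_num at h
    have k4 : (k : Z13) ^ 4 = 1 := by revert k8; generalize (k : Z13) = κ; revert κ; decide
    have b4 : b ^ 4 = 1 := hΩ.cent ox ((act hb 4).2 k4) (m := 2) (by norm_num)
      (by rw [← pow_mul, b8])
    have k2 : (k : Z13) ^ 2 ≠ 1 := fun h => hb2 (hΩ.cent ox ((act hb 2).2 h) (m := 2)
      (by norm_num) (by rw [← pow_mul, b4]))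
    obtain ⟨Q⟩ : Nonempty (Sylow 3 N) := inferInstance
    have nQ : (Q : Subgroup N).Normal := Sylow.normal_of_normalizerCondition
      (Group.normalizerCondition_of_isNilpotent) Q
    have := Q.characteristic_of_normal nQ
    have pQ : IsPGroup 3 ((Q : Subgroup N).map N.subtype) := Q.isPGroup'.map _
    obtain ⟨v, hv⟩ := exists_nm_ne (K := (Q : Subgroup N).map N.subtype) (by
        rw [Ne, map_eq_bot_iff_of_injective _ N.subtype_injective]
        exact Q.ne_bot_of_dvd_card h3)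
      (fun h => hN (h.trans (card_dvd_of_le (map_subtype_le _)))) hx
      (fx _ (map_subtype_le _)) hb (d := 3) (by
        revert k4 k2; generalize (k : Z13) = κ; revert κ; decide)
    have e := pow_nm b v 4
    rw [b4, mul_one] at e
    have hvN := map_subtype_le _ v.2
    rcases hΩ (v * b) with h | h | h
    · obtain ⟨j, hj⟩ := pQ (nm b v 4)
      refine hv ((pow_eq_one_iff_of_coprime (Nat.Coprime.pow_right j
        (show Nat.Coprime 2 3 by norm_num))).1 ⟨Subtype.ext ?_, hj⟩)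
      rw [Subgroup.coe_pow, ← e, ← pow_mul]
      exact orderOf_dvd_iff_pow_eq_one.1 h
    · have := (pw1 _ hvN hb 6 h).2
      revert k4 k2 this; generalize (k : Z13) = κ; revert κ; decide
    · have := (pw1 _ hvN hb 13 h.dvd).2
      revert k4 k2 this; generalize (k : Z13) = κ; revert κ; decide
  have N2 : IsPGroup 2 N := by
    rw [IsPGroup.iff_card]
    refine ⟨_, Nat.eq_prime_pow_of_unique_prime_dvd Nat.card_pos.ne' fun {r} hr hrN => ?_⟩
    have := Fact.mk hr
    obtain ⟨t, ht⟩ := exists_prime_orderOf_dvd_card' (G := N) r hrN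
    rw [← Subgroup.orderOf_coe] at ht
    rcases hΩ t with h | h | h <;> rw [ht] at h
    · exact (Nat.prime_dvd_prime_iff_eq hr Nat.prime_two).1
        (hr.dvd_of_dvd_pow (show r ∣ 2 ^ 3 from h))
    · rcases (Nat.Prime.dvd_mul hr).1 (show r ∣ 2 * 3 from h) with h | h
      · exact (Nat.prime_dvd_prime_iff_eq hr Nat.prime_two).1 h
      · exact absurd ((Nat.prime_dvd_prime_iff_eq hr Nat.prime_three).1 h ▸ hrN) h3
    · exact absurd (h ▸ hrN) hN
  obtain ⟨g, og, hg⟩ : ∃ g : G, orderOf g = 3 ∧ g * x * g⁻¹ = x ^ 3 := by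
    obtain ⟨n', hn', g, l, rfl, hg⟩ := dec u
    obtain ⟨g3, l3⟩ := pw1 n' hn' hg 3 ou.dvd
    have g1 : g ≠ 1 := fun h => h3 (ou ▸ N.orderOf_dvd_natCard (by simpa [h] using hn'))
    have og : orderOf g = 3 := orderOf_eq_prime g3 g1
    have l1 : (l : Z13) ^ 1 ≠ 1 := fun h => g1 (hΩ.cent ox (by simpa using (act hg 1).2 h)
      (by norm_num) g3)
    have e := fun j => xp_conj_pow hx hg j 1
    simp only [x1, mul_one] at e
    have : (l : Z13) ^ 1 = (3 : ℕ) ∨ (l : Z13) ^ 2 = (3 : ℕ) := by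
      revert l3 l1; generalize (l : Z13) = κ; revert κ; decide
    rcases this with h | h
    · exact ⟨g ^ 1, by simpa using og, by rw [e, h, xp_cast hx, mul_inv_cancel_right]⟩
    · exact ⟨g ^ 2, by rw [orderOf_pow' _ two_ne_zero, og]; rfl,
        by rw [e, h, xp_cast hx, mul_inv_cancel_right]⟩
  by_cases hb1 : b = 1
  · have := exp4 N2 (fun t ht => by
        rcases hΩ t with h | h | h
        · exact absurd (ht.trans h) (by norm_num)
        · exact absurd (ht.trans h) (by norm_num)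
        · rw [h] at ht; norm_num at ht) (fun t ht => by
        rcases hΩ t with h | h | h
        · exact absurd (ht.trans h) (by norm_num)
        · exact absurd (ht.trans h) (by norm_num)
        · rw [h] at ht; norm_num at ht) ox og hg hn
    rw [hb1, mul_one] at oy
    rw [← orderOf_dvd_iff_pow_eq_one, oy] at this
    norm_num at this
  have k1 : (k : Z13) ^ 1 ≠ 1 := fun h => hb1 (hΩ.cent ox (by simpa using (act hb 1).2 h)
    (by norm_num) b8)
  obtain ⟨j, hj⟩ : ∃ j : Fin 3, (k : Z13) ^ (j : ℕ) = (12 : ℕ) := by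
    revert k8 k1; generalize (k : Z13) = κ; revert κ; decide
  have e := xp_conj_pow hx hb j 1
  rw [x1, mul_one, hj, xp_cast hx] at e
  have hh : g * b ^ (j : ℕ) * x * (g * b ^ (j : ℕ))⁻¹ = x ^ 36 := by
    rw [mul_assoc g, e, mul_inv_rev, mul_assoc, mul_assoc, mul_inv_cancel_left, ← mul_assoc,
      ← conj_pow, hg, ← pow_mul]
  have six : ∀ v ∈ N, (v * (g * b ^ (j : ℕ))) ^ 6 = 1 := fun v hv => by
    rcases hΩ (v * (g * b ^ (j : ℕ))) with h | h | h
    · exact absurd (pw1 v hv hh 8 h).2 (by decide)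
    · exact orderOf_dvd_iff_pow_eq_one.1 h
    · exact absurd (pw1 v hv hh 13 h.dvd).2 (by decide)
  obtain ⟨v, hv⟩ := exists_nm_ne hN0 hN hx (fx N le_rfl) hh (d := 5) (by decide)
  have e1 := pow_nm (g * b ^ (j : ℕ)) v 6
  have e2 := six 1 (one_mem _)
  rw [one_mul] at e2
  rw [six v v.2, e2, mul_one] at e1
  exact hv (Subtype.ext e1.symm)

end Cfsg.Agent.H54.Cr
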